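import Cfsg.Agent.S0292
import Cfsg.Agent.S0293
import Cfsg.Agent.S0294

/-!
# The `2`-parts of the orders of the orthogonal groups over `F` and `F₀`, `|F| = |F₀| ^ k`, `k` odd (helper241)

`card_odd`, `card_plus`, `card_minus`.
-/

set_option autoImplicit false

namespace Cfsg.Agent.H241.AO

open Cfsg

/-- `x` and `y` have the same `2`-part -/
def E2 (x y : ℕ) : Prop := ∃ u v : ℕ, Odd u ∧ Odd v ∧ x * u = y * v

theorem E2.refl (x : ℕ) : E2 x x := ⟨1, 1, odd_one, odd_one, rfl⟩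

theorem E2.mul {x y x' y' : ℕ} (h : E2 x y) (h' : E2 x' y') : E2 (x * x') (y * y') := by
  obtain ⟨u, v, hu, hv, e⟩ := h
  obtain ⟨u', v', hu', hv', e'⟩ := h'
  refine ⟨u * u', v * v', hu.mul hu', hv.mul hv', ?_⟩
  calc x * x' * (u * u') = (x * u) * (x' * u') := by ring
    _ = (y * v) * (y' * v') := by rw [e, e']
    _ = y * y' * (v * v') := by ring

theorem E2.prod {κ : Type*} (S : Finset κ) {f g : κ → ℕ} (h : ∀ i ∈ S, E2 (f i) (g i)) :
    E2 (∏ i ∈ S, f i) (∏ i ∈ S, g i) := by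
  classical
  induction S using Finset.induction_on with
  | empty => simpa using E2.refl 1
  | insert i S hi ih =>
    rw [Finset.prod_insert hi, Finset.prod_insert hi]
    exact (h i (Finset.mem_insert_self i S)).mul (ih fun k hk => h k (Finset.mem_insert_of_mem hk))

theorem E2.of_odd {x y : ℕ} (hx : Odd x) (hy : Odd y) : E2 x y := ⟨y, x, hy, hx, mul_comm x y⟩

theorem fac_odd {x : ℕ} (h : Odd x) : x.factorization 2 = 0 :=
  Nat.factorization_eq_zero_of_not_dvd fun h2 => (Nat.not_even_iff_odd.2 h) (even_iff_two_dvd.2 h2)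

theorem E2.fac {x y : ℕ} (h : E2 x y) (hx : x ≠ 0) (hy : y ≠ 0) : x.factorization 2 = y.factorization 2 := by
  obtain ⟨u, v, hu, hv, e⟩ := h
  have h1 : (x * u).factorization 2 = (y * v).factorization 2 := by rw [e]
  rw [Nat.factorization_mul hx hu.pos.ne', Nat.factorization_mul hy hv.pos.ne', Finsupp.add_apply, Finsupp.add_apply,
    fac_odd hu, fac_odd hv, add_zero, add_zero] at h1
  exact h1

theorem pow_sub_aux (c : ℕ) (hc : Even c) (l : ℕ) : ∃ s : ℕ, Odd s ∧ (c + 1) ^ (2 * l + 1) = c * s + 1 := by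
  induction l with
  | zero => exact ⟨1, odd_one, by ring⟩
  | succ l ih =>
    obtain ⟨s, hs, e⟩ := ih
    refine ⟨(c + 1) ^ 2 * s + (c + 2), ?_, ?_⟩
    · exact ((hc.add_one.pow).mul hs).add_even (hc.add even_two)
    · have h1 : (c + 1) ^ (2 * (l + 1) + 1) = (c + 1) ^ 2 * (c + 1) ^ (2 * l + 1) := by ring
      rw [h1, e]
      ring

theorem pow_add_aux (c : ℕ) (hc : Even c) (l : ℕ) : ∃ s : ℕ, Odd s ∧ (c + 1) ^ (2 * l + 1) + 1 = (c + 2) * s := by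
  induction l with
  | zero => exact ⟨1, odd_one, by ring⟩
  | succ l ih =>
    obtain ⟨s, hs, e⟩ := ih
    have hs1 : 1 ≤ s := hs.pos
    have hle : c ≤ (c + 1) ^ 2 * s := by nlinarith
    have h2 : (c + 1) ^ 2 * s - c + c = (c + 1) ^ 2 * s := Nat.sub_add_cancel hle
    refine ⟨(c + 1) ^ 2 * s - c, ?_, ?_⟩
    · have h3 : Odd ((c + 1) ^ 2 * s - c + c) := by rw [h2]; exact (hc.add_one.pow).mul hs
      exact (Nat.odd_add.1 h3).2 hc
    · have h1 : (c + 1) ^ (2 * (l + 1) + 1) + 1 + (c + 2) * c = (c + 1) ^ 2 * ((c + 1) ^ (2 * l + 1) + 1) := by ring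
      have h3 : (c + 2) * ((c + 1) ^ 2 * s - c) + (c + 2) * c = (c + 1) ^ 2 * ((c + 1) ^ (2 * l + 1) + 1) := by
        rw [← mul_add, h2, e]
        ring
      omega

theorem e2_sub {q k : ℕ} (hq : Odd q) (hk : Odd k) (i : ℕ) : E2 ((q ^ k) ^ i - 1) (q ^ i - 1) := by
  obtain ⟨l, rfl⟩ := hk
  obtain ⟨c, hc⟩ := Nat.exists_eq_add_of_le' (hq.pow (n := i)).pos
  have hce : Even c := by
    have h1 : Odd (c + 1) := hc ▸ hq.pow
    exact Nat.not_odd_iff_even.1 fun h2 => (Nat.not_even_iff_odd.2 h1) h2.add_one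
  obtain ⟨s, hs, e⟩ := pow_sub_aux c hce l
  refine ⟨1, s, odd_one, hs, ?_⟩
  rw [← pow_mul, mul_comm _ i, pow_mul, hc, e, mul_one, Nat.add_sub_cancel, Nat.add_sub_cancel]

theorem e2_add {q k : ℕ} (hq : Odd q) (hk : Odd k) (i : ℕ) : E2 ((q ^ k) ^ i + 1) (q ^ i + 1) := by
  obtain ⟨l, rfl⟩ := hk
  obtain ⟨c, hc⟩ := Nat.exists_eq_add_of_le' (hq.pow (n := i)).pos
  have hce : Even c := by
    have h1 : Odd (c + 1) := hc ▸ hq.pow
    exact Nat.not_odd_iff_even.1 fun h2 => (Nat.not_even_iff_odd.2 h1) h2.add_one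
  obtain ⟨s, hs, e⟩ := pow_add_aux c hce l
  refine ⟨1, s, odd_one, hs, ?_⟩
  rw [← pow_mul, mul_comm _ i, pow_mul, hc, e, mul_one]

theorem e2_prod {q k : ℕ} (hq : Odd q) (hk : Odd k) (n : ℕ) :
    E2 (∏ i ∈ Finset.range n, ((q ^ k) ^ (2 * (i + 1)) - 1)) (∏ i ∈ Finset.range n, (q ^ (2 * (i + 1)) - 1)) :=
  E2.prod _ fun i _ => e2_sub hq hk _

/-- odd powers modulo `4` -/
theorem pow_mod_four {q k : ℕ} (hq : Odd q) (hk : Odd k) (m : ℕ) : (q ^ k) ^ m ≡ q ^ m [MOD 4] := by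
  obtain ⟨l, rfl⟩ := hk
  have h1 : q ^ 2 ≡ 1 [MOD 4] := by
    obtain ⟨c, rfl⟩ := hq
    have : (2 * c + 1) ^ 2 = 1 + 4 * (c ^ 2 + c) := by ring
    rw [this]
    exact (Nat.modEq_iff_dvd' (Nat.le_add_right _ _)).2 ⟨c ^ 2 + c, by omega⟩ |>.symm
  refine Nat.ModEq.pow m ?_
  rw [pow_succ, pow_mul]
  have h2 := (h1.pow l).mul_right q
  rwa [one_pow, one_mul] at h2

theorem gcd_sub {q k : ℕ} (hq : Odd q) (hk : Odd k) (m : ℕ) :
    Nat.gcd 4 ((q ^ k) ^ m - 1) = Nat.gcd 4 (q ^ m - 1) := by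
  have h := pow_mod_four hq hk m
  have h1 : 1 ≤ (q ^ k) ^ m := (hq.pow.pow).pos
  have h2 : 1 ≤ q ^ m := hq.pow.pos
  have h3 : (q ^ k) ^ m - 1 ≡ q ^ m - 1 [MOD 4] := by
    have : (q ^ k) ^ m - 1 + 1 ≡ q ^ m - 1 + 1 [MOD 4] := by
      rw [Nat.sub_add_cancel h1, Nat.sub_add_cancel h2]; exact h
    exact Nat.ModEq.add_right_cancel' 1 this
  rw [Nat.gcd_comm, Nat.gcd_comm 4]
  exact h3.gcd_eq

theorem gcd_add {q k : ℕ} (hq : Odd q) (hk : Odd k) (m : ℕ) :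
    Nat.gcd 4 ((q ^ k) ^ m + 1) = Nat.gcd 4 (q ^ m + 1) := by
  rw [Nat.gcd_comm, Nat.gcd_comm 4]
  exact ((pow_mod_four hq hk m).add_right 1).gcd_eq

theorem num2 {q q' N D c c₀ P P' : ℕ} (hq : Odd q) (hq' : Odd q') (hP : E2 P' P) (hP0 : P ≠ 0) (hP0' : P' ≠ 0)
    (hD : D ≠ 0) (h : D * c = q' ^ N * P') (h₀ : D * c₀ = q ^ N * P) : c.factorization 2 = c₀.factorization 2 := by
  have e1 : q' ^ N ≠ 0 := (hq'.pow).pos.ne'
  have e2 : q ^ N ≠ 0 := (hq.pow).pos.ne'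
  have hc : c ≠ 0 := by
    rintro rfl
    rw [mul_zero] at h
    exact mul_ne_zero e1 hP0' h.symm
  have hc₀ : c₀ ≠ 0 := by
    rintro rfl
    rw [mul_zero] at h₀
    exact mul_ne_zero e2 hP0 h₀.symm
  have h1 : (D * c).factorization 2 = (q' ^ N * P').factorization 2 := by rw [h]
  have h2 : (D * c₀).factorization 2 = (q ^ N * P).factorization 2 := by rw [h₀]
  rw [Nat.factorization_mul hD hc, Nat.factorization_mul e1 hP0', Finsupp.add_apply, Finsupp.add_apply,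
    fac_odd hq'.pow, hP.fac hP0' hP0] at h1
  rw [Nat.factorization_mul hD hc₀, Nat.factorization_mul e2 hP0, Finsupp.add_apply, Finsupp.add_apply,
    fac_odd hq.pow] at h2
  omega

theorem prod_ne {q : ℕ} (hq : 3 ≤ q) (n : ℕ) : ∏ i ∈ Finset.range n, (q ^ (2 * (i + 1)) - 1) ≠ 0 := by
  refine Finset.prod_ne_zero_iff.2 fun i _ => ?_
  have : 1 < q ^ (2 * (i + 1)) := Nat.one_lt_pow (by omega) (by omega)
  omega

section

variable {F F₀ : Type*} [Field F] [Fintype F] [Field F₀] [Fintype F₀] {k : ℕ}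

theorem three_le (h : Odd (Fintype.card F₀)) : 3 ≤ Fintype.card F₀ := by
  have h1 : 1 < Fintype.card F₀ := Fintype.one_lt_card
  obtain ⟨c, hc⟩ := h
  omega

theorem card_odd (hq : Odd (Fintype.card F₀)) (hk : Odd k) (hF : Fintype.card F = Fintype.card F₀ ^ k) {m : ℕ}
    (hm : 3 ≤ m) : (Nat.card (POmega F (quadFormOdd m F))).factorization 2 =
      (Nat.card (POmega F₀ (quadFormOdd m F₀))).factorization 2 := by
  have hq' : Odd (Fintype.card F) := hF ▸ hq.pow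
  have h1 := Cfsg.Agent.S0292.result rfl hq' m hm
  have h2 := Cfsg.Agent.S0292.result rfl hq m hm
  refine num2 hq hq' ?_ (prod_ne (three_le hq) m) (prod_ne (three_le hq') m) two_ne_zero h1 h2
  rw [hF]
  exact e2_prod hq hk m

theorem card_plus (hq : Odd (Fintype.card F₀)) (hk : Odd k) (hF : Fintype.card F = Fintype.card F₀ ^ k) {m : ℕ}
    (hm : 4 ≤ m) : (Nat.card (POmega F (quadFormPlus m F))).factorization 2 =
      (Nat.card (POmega F₀ (quadFormPlus m F₀))).factorization 2 := by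
  have hq' : Odd (Fintype.card F) := hF ▸ hq.pow
  have h1 := Cfsg.Agent.S0293.result (F := F) rfl m hm
  have h2 := Cfsg.Agent.S0293.result (F := F₀) rfl m hm
  rw [mul_assoc (_ ^ _)] at h1 h2
  have ne : ∀ {q : ℕ}, 3 ≤ q → q ^ m - 1 ≠ 0 := fun {q} h => by
    have : 1 < q ^ m := Nat.one_lt_pow (by omega) (by omega)
    omega
  refine num2 hq hq' ?_ (mul_ne_zero (ne (three_le hq)) (prod_ne (three_le hq) (m - 1)))
    (mul_ne_zero (ne (three_le hq')) (prod_ne (three_le hq') (m - 1))) ?_ h1 ?_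
  · rw [hF]
    exact (e2_sub hq hk m).mul (e2_prod hq hk _)
  · exact Nat.gcd_ne_zero_left (by norm_num)
  · rw [hF, gcd_sub hq hk]
    exact h2

theorem card_minus (hq : Odd (Fintype.card F₀)) (hk : Odd k) (hF : Fintype.card F = Fintype.card F₀ ^ k) {m : ℕ}
    (hm : 3 ≤ m) {a b : F} {a₀ b₀ : F₀}
    (hab : ∀ z₁ z₂ : F, z₁ ^ 2 + a * z₁ * z₂ + b * z₂ ^ 2 = 0 → z₁ = 0 ∧ z₂ = 0)
    (hab₀ : ∀ z₁ z₂ : F₀, z₁ ^ 2 + a₀ * z₁ * z₂ + b₀ * z₂ ^ 2 = 0 → z₁ = 0 ∧ z₂ = 0) :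
    (Nat.card (POmega F (quadFormMinus m F a b))).factorization 2 =
      (Nat.card (POmega F₀ (quadFormMinus m F₀ a₀ b₀))).factorization 2 := by
  have hq' : Odd (Fintype.card F) := hF ▸ hq.pow
  have h1 := Cfsg.Agent.S0294.result (F := F) rfl (m + 1) (by omega) a b hab
  have h2 := Cfsg.Agent.S0294.result (F := F₀) rfl (m + 1) (by omega) a₀ b₀ hab₀
  rw [mul_assoc (_ ^ _), Nat.add_sub_cancel] at h1 h2
  refine num2 hq hq' ?_ (mul_ne_zero (Nat.succ_ne_zero (Fintype.card F₀ ^ (m + 1))) (prod_ne (three_le hq) m))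
    (mul_ne_zero (Nat.succ_ne_zero (Fintype.card F ^ (m + 1))) (prod_ne (three_le hq') m)) ?_ h1 ?_
  · rw [hF]
    exact (e2_add hq hk (m + 1)).mul (e2_prod hq hk _)
  · exact Nat.gcd_ne_zero_left (by norm_num)
  · rw [hF, gcd_add hq hk]
    exact h2

end

end Cfsg.Agent.H241.AO
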