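import Cfsg.Agent.H241.AO.Good
import Cfsg.Agent.H241.AO.Num
import Cfsg.Agent.H885.FC.Orth
import Cfsg.Agent.H902.Binary
import Cfsg.Agent.ClassicalGeometry.OddInvolutions
import Cfsg.Agent.H202.Descent

/-!
# `AutOdd` for the orthogonal groups of minus type (helper241)

`autOdd_oMinus`.
-/

set_option autoImplicit false
set_option linter.unusedSectionVars false

namespace Cfsg.Agent.H241.AO

open Cfsg Matrix QuadraticMap Cfsg.Agent.LieClassical.OrthCore Cfsg.Agent.LieClassical.OrthTrans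
  Cfsg.Agent.ClassicalGeometry.OrthSemi Cfsg.Agent.ClassicalGeometry.OrthAut1
  Cfsg.Agent.AutOrth.SemiSim Cfsg.Agent.H198.OrthFrame Cfsg.Agent.H185.OrthCent Cfsg.Agent.H185.ExtKappa
  Cfsg.Agent.H208.ExtE Cfsg.Agent.H208.FixPt Cfsg.Agent.AutOrth.Main Cfsg.Agent.H208.FixGood
open Cfsg.Agent.H561.RV
open Cfsg.Agent.H966.Frob Cfsg.Agent.H208.Frame
open Cfsg.Agent.LieClassical.QuadForms

section Field

variable {F : Type*} [Field F] [Fintype F]

/-- automorphisms in `⟨σ₀⟩` fix the elements of `fix σ₀` -/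
theorem fix_of_mem {σ₀ τ : F ≃+* F} (h : τ ∈ Subgroup.zpowers σ₀) {a : F} (ha : σ₀ a = a) : τ a = a := by
  have hfin : Finite (F ≃+* F) :=
    Finite.of_injective (fun e : F ≃+* F => (e : F → F)) (fun a b h => RingEquiv.ext (congrFun h))
  obtain ⟨n, rfl⟩ := mem_powers_iff_mem_zpowers.2 h
  clear h
  dsimp only
  induction n with
  | zero => rfl
  | succ n ih =>
    rw [pow_succ, RingAut.mul_apply, ha]
    exact ih

theorem hgal_of {σ₀ : F ≃+* F} (h : ∀ σ : F ≃+* F, ∃ n : ℕ, σ ^ 2 ^ n ∈ Subgroup.zpowers σ₀) (σ : F ≃+* F) :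
    ∃ n : ℕ, ∀ b : fix σ₀, (σ ^ 2 ^ n) ((fix σ₀).subtype b) = (fix σ₀).subtype b := by
  obtain ⟨n, hn⟩ := h σ
  exact ⟨n, fun b => fix_of_mem hn b.2⟩

theorem card_of {σ₀ : F ≃+* F} [Fintype (fix σ₀)] : Fintype.card F = Fintype.card (fix σ₀) ^ orderOf σ₀ := by
  have h := H202.Descent.card_fixed (F := F) (σ := σ₀) rfl
  rw [← Nat.card_eq_fintype_card, ← Nat.card_eq_fintype_card]
  exact h

theorem odd_of {σ₀ : F ≃+* F} [Fintype (fix σ₀)] (hodd : Odd (Fintype.card F)) : Odd (Fintype.card (fix σ₀)) := by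
  have hfin : Finite (F ≃+* F) :=
    Finite.of_injective (fun e : F ≃+* F => (e : F → F)) (fun a b h => RingEquiv.ext (congrFun h))
  rw [card_of (σ₀ := σ₀)] at hodd
  exact Odd.of_dvd_nat hodd (dvd_pow_self _ (orderOf_pos σ₀).ne')

theorem exists_aniso {K : Type*} [Field K] [Fintype K] (hodd : Odd (Fintype.card K)) :
    ∃ a b : K, ∀ z₁ z₂ : K, z₁ ^ 2 + a * z₁ * z₂ + b * z₂ ^ 2 = 0 → z₁ = 0 ∧ z₂ = 0 := by
  have h2 : ringChar K ≠ 2 := by
    intro h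
    have := FiniteField.even_card_of_char_two h
    rw [Nat.odd_iff] at hodd
    omega
  obtain ⟨s, hs⟩ := FiniteField.exists_nonsquare h2
  refine ⟨0, -s, fun z₁ z₂ h => ?_⟩
  have h0 : z₂ = 0 := by
    by_contra h0
    apply hs
    refine ⟨z₁ / z₂, ?_⟩
    field_simp
    linear_combination -h
  subst h0
  refine ⟨?_, rfl⟩
  have h1 : z₁ ^ 2 = 0 := by linear_combination h
  exact pow_eq_zero_iff (two_ne_zero) |>.1 h1

end Field

/-- the minus type with coefficients in the fixed field of the odd part of the Galois group -/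
theorem autOdd_minus_fix {F : Type*} [Field F] [Fintype F] (hodd : Odd (Fintype.card F)) {m : ℕ} (hm : 3 ≤ m)
    {σ₀ : F ≃+* F} (ho : Odd (orderOf σ₀)) (hσ : ∀ σ : F ≃+* F, ∃ n : ℕ, σ ^ 2 ^ n ∈ Subgroup.zpowers σ₀)
    {a₀ b₀ : fix σ₀}
    (hab₀ : ∀ z₁ z₂ : fix σ₀, z₁ ^ 2 + a₀ * z₁ * z₂ + b₀ * z₂ ^ 2 = 0 → z₁ = 0 ∧ z₂ = 0)
    (hab : ∀ z₁ z₂ : F, z₁ ^ 2 + (a₀ : F) * z₁ * z₂ + (b₀ : F) * z₂ ^ 2 = 0 → z₁ = 0 ∧ z₂ = 0) :
    AutOdd (POmega F (quadFormMinus m F (a₀ : F) (b₀ : F))) := by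
  classical
  have : Fintype (fix σ₀) := Fintype.ofFinite _
  have hx : Ext (fix σ₀).subtype (minusForm m (fix σ₀) a₀ b₀) (minusForm m F (a₀ : F) (b₀ : F)) := ⟨fun v => by
    rw [coe_minusForm, coe_minusForm]
    exact (coe_minus (fix σ₀) m a₀ b₀ v).symm⟩
  have hI := all_minus hm hab
  have hc := card_minus (odd_of (σ₀ := σ₀) hodd) ho (card_of (σ₀ := σ₀)) hm hab hab₀
  rw [← coe_minusForm] at hI hc ⊢
  rw [← coe_minusForm] at hc
  refine autOdd_POmega hx (good_minus (by omega) hab₀) (good_minus (by omega) hab) hI (hgal_of hσ) ?_ hc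
  intro σ hb v
  have ha : σ (a₀ : F) = a₀ := hb a₀
  have hb' : σ (b₀ : F) = b₀ := hb b₀
  rw [coe_minusForm]
  unfold Cfsg.quadFormMinus
  simp only [map_add, map_sum, map_mul, map_pow, ha, hb']

/-- **`AutOdd` for the orthogonal groups of minus type** -/
theorem autOdd_oMinus {F : Type*} [Field F] [Fintype F] (hodd : Odd (Fintype.card F)) {m : ℕ} (hm : 3 ≤ m) (a b : F)
    (hab : ∀ z₁ z₂ : F, z₁ ^ 2 + a * z₁ * z₂ + b * z₂ ^ 2 = 0 → z₁ = 0 ∧ z₂ = 0) :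
    AutOdd (POmega F (quadFormMinus m F a b)) := by
  classical
  obtain ⟨σ₀, ho, hσ⟩ := exists_sigma F
  have : Fintype (fix σ₀) := Fintype.ofFinite _
  obtain ⟨a₀, b₀, hab₀⟩ := exists_aniso (odd_of (σ₀ := σ₀) hodd)
  have han : ∀ z₁ z₂ : F, z₁ ^ 2 + (a₀ : F) * z₁ * z₂ + (b₀ : F) * z₂ ^ 2 = 0 → z₁ = 0 ∧ z₂ = 0 := by
    refine H885.FC.Orth.aniso_of_fix rfl ho a₀.2 b₀.2 fun z₁ z₂ h1 h2 h => ?_
    have h3 := hab₀ ⟨z₁, h1⟩ ⟨z₂, h2⟩ (Subtype.ext h)
    exact ⟨congrArg Subtype.val h3.1, congrArg Subtype.val h3.2⟩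
  have h := autOdd_minus_fix hodd hm ho hσ hab₀ han
  obtain ⟨s, t, ht, h1, h2⟩ := H902.Binary.exists_change hab han
  -- the change of coordinates
  have hdet : (Matrix.fromBlocks 1 0 0 !![1, s; 0, t] :
      Matrix ((Fin m ⊕ Fin m) ⊕ Fin 2) ((Fin m ⊕ Fin m) ⊕ Fin 2) F).det ≠ 0 := by
    rw [Matrix.det_fromBlocks_zero₂₁, Matrix.det_one, one_mul, Matrix.det_fin_two_of]
    simpa using ht
  have e := ClassicalGeometry.OddInvolutions.pomega_congr (quadFormMinus m F a b)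
    (Matrix.GeneralLinearGroup.mkOfDetNeZero _ hdet)
  have h3 : (fun v => quadFormMinus m F a b
      ((Matrix.GeneralLinearGroup.mkOfDetNeZero (Matrix.fromBlocks 1 0 0 !![1, s; 0, t]) hdet :
        GL ((Fin m ⊕ Fin m) ⊕ Fin 2) F) *ᵥ v)) = quadFormMinus m F (a₀ : F) (b₀ : F) := by
    funext v
    change quadFormMinus m F a b (Matrix.fromBlocks 1 0 0 !![1, s; 0, t] *ᵥ v) = _
    rw [Matrix.fromBlocks_mulVec]
    unfold quadFormMinus
    simp only [Sum.elim_inl, Sum.elim_inr, Matrix.one_mulVec, Matrix.zero_mulVec, add_zero,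
      zero_add, Function.comp_apply, Matrix.mulVec, dotProduct, Fin.sum_univ_two, Matrix.of_apply, Matrix.cons_val_zero,
      Matrix.cons_val_one, Matrix.cons_val', Matrix.cons_val_fin_one]
    rw [← h1, ← h2]
    ring
  rw [h3] at e
  obtain ⟨f⟩ := e
  exact AutOdd.of_equiv f.symm h

end Cfsg.Agent.H241.AO
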